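import Cfsg.Agent.H419.EP.Iface

/-!
# S3499: the kill criterion for the `2`-torsion of the centre of `A ∩ A^x` (helper663)

`K = {z ∈ Z(M0) | z² = 1}` is invariant under the stabiliser of the point `x`; so `N_A(K) ≤ A^x` if `K ≠ 1`.
-/

set_option autoImplicit false

namespace Cfsg.Agent.H663.EP

open Subgroup Cfsg.Agent.H284 Cfsg.Agent.H419.EP
open scoped MatrixGroups commutatorElement

/-- the `2`-torsion of the centre of `M` -/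
def omegaZ {Q : Type*} [Group Q] (M : Subgroup Q) : Subgroup Q where
  carrier := {z | z ∈ M ∧ z * z = 1 ∧ ∀ y ∈ M, z * y = y * z}
  one_mem' := ⟨one_mem _, one_mul 1, fun y _ => by rw [one_mul, mul_one]⟩
  mul_mem' := by
    rintro a b ⟨ha, ha2, hac⟩ ⟨hb, hb2, hbc⟩
    refine ⟨mul_mem ha hb, ?_, fun y hy => by rw [mul_assoc, hbc y hy, ← mul_assoc, hac y hy, mul_assoc]⟩
    calc a * b * (a * b) = a * (b * a) * b := by group
      _ = (a * a) * (b * b) := by rw [hbc a ha]; group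
      _ = 1 := by rw [ha2, hb2, one_mul]
  inv_mem' := by
    rintro a ⟨ha, ha2, hac⟩
    have e : a⁻¹ = a := inv_eq_of_mul_eq_one_right ha2
    rw [e]
    exact ⟨ha, ha2, hac⟩

theorem mem_omegaZ {Q : Type*} [Group Q] {M : Subgroup Q} {z : Q} :
    z ∈ omegaZ M ↔ z ∈ M ∧ z * z = 1 ∧ ∀ y ∈ M, z * y = y * z := Iff.rfl

/-- `omegaZ` is invariant under the automorphisms preserving `M` -/
theorem omegaZ_inv {Q : Type*} [Group Q] [Finite Q] {M : Subgroup Q} {σ : MulAut Q} (hσ : ∀ y ∈ M, σ y ∈ M) :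
    ∀ k ∈ omegaZ M, σ k ∈ omegaZ M := by
  have hs : M.map σ.toMonoidHom = M := by
    apply Subgroup.eq_of_le_of_card_ge
    · rintro _ ⟨y, hy, rfl⟩
      exact hσ y hy
    · rw [Subgroup.card_map_of_injective σ.injective]
  rintro k ⟨hk, hk2, hkc⟩
  refine ⟨hσ k hk, by rw [← map_mul, hk2, map_one], fun y hy => ?_⟩
  rw [← hs] at hy
  obtain ⟨y', hy', rfl⟩ := hy
  change σ k * σ y' = σ y' * σ k
  rw [← map_mul, hkc y' hy', map_mul]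

/-- **Kill criterion**: the `2`-torsion `K` of `Z(M0)`; `K ≠ 1` and `a ∈ A` centralises `K` give `a ∈ A^x`. -/
theorem EPT_kill {Q : Type*} [Group Q] [Finite Q] {A : Subgroup Q} {Γ : Subgroup (MulAut Q)} (h : EPT A Γ)
    {x : Q} (hx : x ∉ A) (hK : omegaZ (A ⊓ cj x A) ≠ ⊥) {a : Q} (ha : a ∈ A)
    (hac : ∀ k ∈ omegaZ (A ⊓ cj x A), a * k = k * a) : a ∈ cj x A := by
  refine h.norm_aut hx (K := omegaZ (A ⊓ cj x A)) (fun k hk => hk.1) (fun σ hσ => omegaZ_inv hσ) hK ha ?_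
  intro k hk
  rw [hac k hk, mul_inv_cancel_right]
  exact hk

variable {Q : Type*} [Group Q] [Finite Q] {A : Subgroup Q} {Γ : Subgroup (MulAut Q)}
variable {ι : Type} [Fintype ι] [DecidableEq ι] {F : Type*} [Field F] {S : Subgroup (GL ι F)}

/-- **Kill criterion for models** -/
theorem kill_two (h : EPT A Γ) (m : Model Q S) {x : GL ι F} (hxS : x ∈ S) {z₀ a₀ : GL ι F}
    (hz₀ : z₀ ∈ m.hat A ⊓ cj x (m.hat A)) (hz₀n : z₀ ∉ Cfsg.Geo.scalars ι F)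
    (hz₀s : z₀ * z₀ ∈ Cfsg.Geo.scalars ι F)
    (hz₀c : ∀ y ∈ m.hat A ⊓ cj x (m.hat A), z₀ * y = y * z₀)
    (ha₀ : a₀ ∈ m.hat A) (ha₀x : a₀ ∉ cj x (m.hat A))
    (hK : ∀ z ∈ m.hat A ⊓ cj x (m.hat A), z * z ∈ Cfsg.Geo.scalars ι F →
      (∀ y ∈ m.hat A ⊓ cj x (m.hat A), ∃ s ∈ Cfsg.Geo.scalars ι F, z * y = y * z * s) → a₀ * z = z * a₀) :
    False := by
  have hx : x ∉ m.hat A := by
    intro hx
    apply ha₀x
    rw [cj_eq_self hx]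
    exact ha₀
  have hx' : m.π ⟨x, hxS⟩ ∉ A := fun e => hx ((m.mem_hat_iff ⟨x, hxS⟩).2 e)
  have hmem : ∀ s : S, m.π s ∈ A ⊓ cj (m.π ⟨x, hxS⟩) A ↔ (s : GL ι F) ∈ m.hat A ⊓ cj x (m.hat A) := by
    intro s
    rw [← m.hat_cj A ⟨x, hxS⟩, ← m.hat_inf]
    exact (m.mem_hat_iff s).symm
  obtain ⟨hz₀S, _⟩ := m.mem_hat.1 (mem_inf.1 hz₀).1
  obtain ⟨ha₀S, ha₀A⟩ := m.mem_hat.1 ha₀
  have h1 := EPT_kill h hx' (a := m.π ⟨a₀, ha₀S⟩) ?_ ha₀A ?_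
  · apply ha₀x
    rw [← m.hat_cj A ⟨x, hxS⟩]
    exact m.mem_hat.2 ⟨ha₀S, h1⟩
  · rw [Subgroup.ne_bot_iff_exists_ne_one]
    refine ⟨⟨m.π ⟨z₀, hz₀S⟩, (hmem ⟨z₀, hz₀S⟩).2 hz₀, ?_, ?_⟩, ?_⟩
    · rw [← map_mul, m.ker]
      exact hz₀s
    · intro y hy
      obtain ⟨s, rfl⟩ := m.surj y
      rw [← map_mul, ← map_mul]
      congr 1
      exact Subtype.ext (hz₀c s ((hmem s).1 hy))
    · intro e
      apply hz₀n
      exact (m.ker ⟨z₀, hz₀S⟩).1 (congrArg Subtype.val e)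
  · rintro k ⟨hk1, hk2, hk3⟩
    obtain ⟨z, rfl⟩ := m.surj k
    rw [← map_mul, ← map_mul]
    congr 1
    apply Subtype.ext
    refine hK z ((hmem z).1 hk1) ?_ ?_
    · rw [← map_mul, m.ker] at hk2
      exact hk2
    · intro y hy
      obtain ⟨hyS, _⟩ := m.mem_hat.1 (mem_inf.1 hy).1
      have h2 := hk3 (m.π ⟨y, hyS⟩) ((hmem ⟨y, hyS⟩).2 hy)
      rw [← map_mul, ← map_mul] at h2
      obtain ⟨s, hs, e⟩ := (m.π_eq_iff (z * ⟨y, hyS⟩) (⟨y, hyS⟩ * z)).1 h2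
      exact ⟨s, hs, e⟩

/-- the preimage of `A` is `M ⊓ S` if it lies in `M` and `S ≰ M` -/
theorem hat_eq (h : EPT A Γ) (m : Model Q S) {M : Subgroup (GL ι F)} (hA : m.hat A ≤ M) (hSM : ¬ S ≤ M) :
    m.hat A = M ⊓ S := by
  rcases (m.isMaximalIn h.max).2 (M ⊓ S) (le_inf hA (m.hat_le A)) inf_le_right with h1 | h1
  · exact h1.symm
  · exact absurd (inf_eq_right.1 h1) hSM

end Cfsg.Agent.H663.EP
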