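import Cfsg.Agent.H419.EP.Soc
import Cfsg.Agent.H895.SLT.ResCard
import Cfsg.Agent.H960.Card81
import Cfsg.Agent.S5776

/-!
# S3499: the residual subgroups of `SL(3,q)`, `q ≥ 5` (helper663, row S5776)

* `Model.card_hat_mul_index` : `|Â| |Q : A| = |S|`;
* `row_sl3` : no extremely primitive group with socle `PSL(3,q)` and residual stabiliser, from index bounds for the
  socles `L₂(7)`, `A₆` of `A`.
-/

set_option autoImplicit false

namespace Cfsg.Agent.H663.EP

open Subgroup Cfsg.Agent.H284 Cfsg.Agent.H419.EP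
open scoped MatrixGroups commutatorElement

section gen

variable {Q : Type*} [Group Q] {ι : Type} [Fintype ι] [DecidableEq ι] {F : Type*} [Field F] {S : Subgroup (GL ι F)}

/-- `|Â| |Q : A| = |S|` -/
theorem card_hat_mul_index (m : Model Q S) (A : Subgroup Q) : Nat.card (m.hat A) * A.index = Nat.card S := by
  have h1 : (A.comap m.π).index = A.index := Subgroup.index_comap_of_surjective A m.surj
  have h2 : Nat.card (m.hat A) = Nat.card (A.comap m.π) :=
    Subgroup.card_map_of_injective S.subtype_injective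
  rw [h2, ← h1]
  exact Subgroup.card_mul_index _

end gen

/-- the order of `SL(3,q)`, `q ≥ 11` -/
theorem card_ge {q : ℕ} (h : 11 ≤ q) : 212427600 ≤ q ^ 3 * (q ^ 2 - 1) * (q ^ 3 - 1) := by
  have h1 : 11 ^ 3 ≤ q ^ 3 := Nat.pow_le_pow_left h 3
  have h2 : 11 ^ 2 ≤ q ^ 2 := Nat.pow_le_pow_left h 2
  calc 212427600 = 11 ^ 3 * (11 ^ 2 - 1) * (11 ^ 3 - 1) := by norm_num
    _ ≤ q ^ 3 * (q ^ 2 - 1) * (q ^ 3 - 1) :=
        Nat.mul_le_mul (Nat.mul_le_mul h1 (Nat.sub_le_sub_right h2 1)) (Nat.sub_le_sub_right h1 1)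

/-- **row `SL(3,q)`**: `q ≥ 5`, `A` residual, with index bounds for the socles `L₂(7)`, `A₆` -/
theorem row_sl3 {Q : Type*} [Group Q] {A : Subgroup Q} (hA : IsCoatom A) {F : Type*} [Field F] [Fintype F]
    (m : Model Q (Cfsg.Geo.specialLinear (Fin 3) F)) (hq : 5 ≤ Fintype.card F)
    (hres : Cfsg.Geo.InLinearResidualClass (m.hat A))
    (b7 : HasSoc A (Matrix.ProjectiveSpecialLinearGroup (Fin 3) (ZMod 2)) → A.index ≤ 210000)
    (b6 : HasSoc A (alternatingGroup (Fin 6)) → A.index ≤ 49000) : False := by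
  obtain ⟨P, p, hcore, hp, hchar, h⟩ := Cfsg.Agent.S5776.result (m.hat A) (m.isMaximalIn hA) hres
  have hS := Cfsg.Agent.H960.card_SL3 (F := F) rfl (by omega)
  have hidx := card_hat_mul_index m A
  rw [hS] at hidx
  have hsoc := hasSoc_of_core m hcore
  rcases h with ⟨⟨e⟩, hF, hp2, hp7⟩ | ⟨⟨e⟩, hF⟩
  · have h11 : 11 ≤ Fintype.card F := by
      by_contra hcon
      have h8 : p = 8 ∨ p = 9 := by omega
      rcases h8 with rfl | rfl <;> norm_num at hp
    have h1 := card_ge h11
    have h2 : Nat.card (m.hat A) ≤ 1008 :=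
      Nat.le_of_dvd (by norm_num) (H895.SLT.card_of_l hcore (m.hat_le A) e)
    have h3 := b7 (hsoc.congr e)
    have h4 := Nat.mul_le_mul h2 h3
    omega
  · have h11 : 11 ≤ Fintype.card F := by
      rcases hF with ⟨hF, h15⟩ | ⟨hF, hp3, h5⟩
      · omega
      · have h7 : 4 ≤ p := by
          by_contra hcon
          have : p = 2 ∨ p = 3 := by
            have := hp.two_le
            omega
          rcases this with rfl | rfl
          · norm_num at hF
            omega
          · exact hp3 rfl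
        rw [hF]
        nlinarith
    have h1 := card_ge h11
    have h2 : Nat.card (m.hat A) ≤ 4320 :=
      Nat.le_of_dvd (by norm_num) (H895.SLT.card_of_a hcore (m.hat_le A) e)
    have h3 := b6 (hsoc.congr e)
    have h4 := Nat.mul_le_mul h2 h3
    omega

/-- the row in the form of the hub -/
theorem row {Q : Type*} [Group Q] [Finite Q] (_hs : IsSimpleGroup Q) {A : Subgroup Q} {Γ : Subgroup (MulAut Q)}
    (h : EPT A Γ) {F : Type*} [Field F] [Fintype F] (m : Model Q (Cfsg.Geo.specialLinear (Fin 3) F))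
    (hq : 5 ≤ Fintype.card F) (hres : Cfsg.Geo.InLinearResidualClass (m.hat A))
    (b7 : HasSoc A (Matrix.ProjectiveSpecialLinearGroup (Fin 3) (ZMod 2)) → A.index ≤ 210000)
    (b6 : HasSoc A (alternatingGroup (Fin 6)) → A.index ≤ 49000) : False :=
  row_sl3 h.max m hq hres b7 b6

end Cfsg.Agent.H663.EP
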